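import Cfsg.Agent.H162.CC.Tools3
import Cfsg.Agent.H478.RadTh
import Cfsg.Agent.Th.D4Main
import Cfsg.Agent.Th.Final

/-!
# The rows `CRow p Th`: basic facts and the primes 7, 13 (helper755, S3828)
-/

set_option autoImplicit false

namespace Cfsg.Agent.H755.CC.ThB

open Subgroup Cfsg Cfsg.Agent.H162.CCR Cfsg.Agent.Lib.Cores
open Cfsg.Agent.H478.RadTh (card_Th simple center_Th radFree_invol)

abbrev G : Type := Cfsg.Spor.Th

instance finite_G : Finite G := Cfsg.Agent.H478.RadTh.fin

instance simple_G : IsSimpleGroup G := simple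

theorem na_G : ¬ IsMulCommutative G := by
  intro hc
  let _ : CommGroup G := { (inferInstance : Group G) with mul_comm := hc.is_comm.comm }
  have := IsSimpleGroup.prime_card (α := G)
  rw [card_Th] at this
  exact absurd this (by norm_num)

theorem core_G (p : ℕ) [Fact p.Prime] : pCore p G = ⊥ := pCore_eq_bot_of_simple na_G p

theorem centralizer_ne_top {t : G} (ht : t ≠ 1) : centralizer ({t} : Set G) ≠ ⊤ := by
  intro h
  apply ht
  have h1 : t ∈ center G := by
    rw [mem_center_iff]
    intro g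
    have h2 : g ∈ centralizer ({t} : Set G) := by rw [h]; trivial
    exact mem_centralizer_singleton_iff.1 h2
  rw [center_Th] at h1
  simpa using h1

/-- no elements of order `p` in the solvable radical -/
theorem pCore_of_radFree {H : Type*} [Group H] [Finite H] {p : ℕ} [hp : Fact p.Prime]
    (h : Cfsg.Agent.H839.Rad.RadFree p H) : pCore p H = ⊥ := by
  by_contra hne
  have h1 : p ∣ Nat.card ↥(pCore p H) := by
    obtain ⟨n, hn⟩ := IsPGroup.iff_card.1 (pCore_isPGroup (G := H) p)
    rw [hn]
    refine dvd_pow_self p ?_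
    rintro rfl
    rw [pow_zero] at hn
    exact hne (card_eq_one.1 hn)
  obtain ⟨x, hx⟩ := exists_prime_orderOf_dvd_card' p h1
  have h2 : Group.IsSolvable ↥(pCore p H) := by
    have := pCore_isNilpotent (G := H) p
    infer_instance
  refine h (x : H) (by rw [Subgroup.orderOf_coe, hx]) ?_
  exact Cfsg.Agent.H459.Rad.le_rad (Cfsg.Agent.Lib.Cores.pCore_normal p) h2 x.2

/-- `O_p(C(t)) = 1` for the involutions -/
theorem core_inv {p : ℕ} [hp : Fact p.Prime] (hp2 : p ≠ 2) (t : G) (ht1 : t ≠ 1) (ht : t * t = 1) :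
    ∃ H : Subgroup G, H ≠ ⊤ ∧ centralizer {t} ≤ H ∧ pCore p H = ⊥ :=
  ⟨centralizer {t}, centralizer_ne_top ht1, le_rfl,
    pCore_of_radFree (radFree_invol hp.out hp2 (orderOf_eq_prime (by rw [pow_two, ht]) ht1))⟩

/-! ### The subgroup `³D₄(2)` -/

open Cfsg.Agent.Th.Base Cfsg.Agent.Th.Word Cfsg.Agent.Th.KOracle Cfsg.Agent.Th.IndexUpper

/-- `³D₄(2)` -/
def L : Subgroup G := closure {gTh 1, gTh 2, gTh 3, gTh 4, gTh 5, gTh 6}

theorem card_K : Nat.card (closure ({gTh 1, gTh 2, gTh 3, gTh 4, gTh 5, gTh 6, gTh 8} : Set G)) = 634023936 := by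
  have h1 := Cfsg.Agent.Th.Final.main.2.2.1
  rw [sub_isK_eq gTh_inv] at h1
  exact h1

theorem card_L : Nat.card L = 211341312 := Cfsg.Agent.Th.D4Main.card_L gTh_relK card_K

theorem simple_L : IsSimpleGroup L := Cfsg.Agent.Th.D4Main.isSimple_L gTh_relK card_K

theorem index_L : L.index = 429381000 := by
  have h1 := L.card_mul_index
  rw [card_L] at h1
  have h2 : Nat.card G = 90745943887872000 := card_Th
  rw [h2] at h1
  omega

theorem L_ne_top : L ≠ ⊤ := by
  intro h
  have h1 := index_L
  rw [h, index_top] at h1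
  omega

theorem na_L : ¬ IsMulCommutative L := by
  have := simple_L
  intro hc
  let _ : CommGroup L := { (inferInstance : Group L) with mul_comm := hc.is_comm.comm }
  have := IsSimpleGroup.prime_card (α := L)
  rw [card_L] at this
  exact absurd this (by norm_num)

theorem core_L (p : ℕ) [Fact p.Prime] : pCore p L = ⊥ := by
  have := simple_L
  exact pCore_eq_bot_of_simple na_L p

theorem crow_of_L {p : ℕ} [hp : Fact p.Prime] (h : ¬ p ∣ 429381000) : CRow p G := by
  intro C hC
  exact hC.eq_one_of_index L_ne_top (by rwa [index_L]) (core_L p)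

theorem crow_seven : @CRow 7 G _ := by
  have : Fact (Nat.Prime 7) := ⟨by norm_num⟩
  exact crow_of_L (by norm_num)

theorem crow_thirteen : @CRow 13 G _ := by
  have : Fact (Nat.Prime 13) := ⟨by norm_num⟩
  exact crow_of_L (by norm_num)

end Cfsg.Agent.H755.CC.ThB
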