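import Cfsg.Agent.H755.CC.ThWords
import Cfsg.Agent.H755.CC.ThBase

/-!
# The rows `CRow p Th`, `p = 7, 13, 19, 31` (helper755, S3828)
-/

set_option autoImplicit false

namespace Cfsg.Agent.H755.CC.ThCyc

open Subgroup Cfsg Cfsg.Agent.H162.CCR
open Cfsg.Agent.Th.Gen248 Cfsg.Agent.H964.NoHall Cfsg.Agent.H635.Spor
open Cfsg.Agent.H755.CC.ThB Cfsg.Agent.H755.CC.ThW
open Cfsg.Agent.H478.RadTh (card_Th)

/-- elements of `C` of prime order dividing `|G|` only once are powers of a given one -/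
theorem exists_pow_mem {X : Type*} [Group X] [Finite X] {p : ℕ} [hp : Fact p.Prime] {C : Set X} (h : Min p C)
    (hcard : ¬ p ^ 2 ∣ Nat.card X) {w : X} (hw : orderOf w = p) {c : X} (hc : c ∈ C) (hc1 : c ≠ 1) :
    ∃ i, i < p ∧ i ≠ 0 ∧ w ^ i ∈ C := by
  classical
  have hp1 : p ∣ Nat.card X := hw ▸ orderOf_dvd_natCard w
  -- the Sylow subgroup generated by `w`
  have hW : Nat.card (zpowers w) = p := by rw [Nat.card_zpowers, hw]
  have hi : ¬ p ∣ (zpowers w).index := by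
    intro h1
    apply hcard
    rw [← (zpowers w).card_mul_index, hW, pow_two]
    exact mul_dvd_mul_left p h1
  obtain ⟨g, hg⟩ := h.exists_conj_mem hi hc
  rw [mem_zpowers_iff_mem_range_orderOf] at hg
  simp only [Finset.mem_image, Finset.mem_range] at hg
  obtain ⟨i, hi1, hi2⟩ := hg
  refine ⟨i, by rwa [hw] at hi1, ?_, ?_⟩
  · rintro rfl
    apply hc1
    rw [pow_zero] at hi2
    have h2 := hi2.symm
    simpa using h2
  · rw [hi2]
    exact h.conj g c hc

/-- moving the exponent -/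
theorem pow_mem_of_conj {X : Type*} [Group X] {p : ℕ} {C : Set X} (h : Min p C) {w a : X} {k : ℕ}
    (ha : a * w = w ^ k * a) {i : ℕ} (hi : w ^ i ∈ C) (j : ℕ) : w ^ (i * k ^ j) ∈ C := by
  induction j with
  | zero => simpa using hi
  | succ j ih =>
    have h1 := h.conj a _ ih
    have h2 : a * w * a⁻¹ = w ^ k := by rw [ha, mul_inv_cancel_right]
    rw [← conj_pow, h2, ← pow_mul] at h1
    rw [pow_succ, ← mul_assoc, mul_comm _ k]
    exact h1

theorem comm_symm {X : Type*} [Group X] {g c : X} (h : g * (c⁻¹ * g * c) = (c⁻¹ * g * c) * g) :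
    g * (c * g * c⁻¹) = (c * g * c⁻¹) * g := by
  calc g * (c * g * c⁻¹) = c * (c⁻¹ * g * c * g) * c⁻¹ := by group
    _ = c * (g * (c⁻¹ * g * c)) * c⁻¹ := by rw [h]
    _ = _ := by group

theorem of_ck {x y : Wd} {k : ℕ} (h : ck x y k = true) :
    thE x * ((thE y ^ k)⁻¹ * thE x * thE y ^ k) = ((thE y ^ k)⁻¹ * thE x * thE y ^ k) * thE x := by
  have h1 := thE_eq h
  have h2 : thE (cp x y k) = (thE y ^ k)⁻¹ * thE x * thE y ^ k := rfl
  rw [thE_mul, thE_mul, h2] at h1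
  exact h1

theorem thE_inv (v : Wd) : thE (.inv v) = (thE v)⁻¹ := rfl

/-- the conjugates of `a` are involutions -/
theorem cj_sq (l : List Lt) : thE (cj l) * thE (cj l) = 1 ∧ thE (cj l) ≠ 1 := by
  have e : thE (cj l) = (thE (wl l))⁻¹ * thE (.g .a) * thE (wl l) := rfl
  have h1 : thE (.g .a) * thE (.g .a) = 1 := by
    have h := thE_eq thA_2
    rwa [thE_pow, thE_one, pow_two] at h
  have h2 : thE (.g .a) ≠ 1 := by
    have h := thE_ne thA_ne
    rwa [thE_one] at h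
  rw [e]
  constructor
  · calc (thE (wl l))⁻¹ * thE (.g .a) * thE (wl l) * ((thE (wl l))⁻¹ * thE (.g .a) * thE (wl l))
        = (thE (wl l))⁻¹ * (thE (.g .a) * thE (.g .a)) * thE (wl l) := by group
      _ = 1 := by rw [h1]; group
  · intro h
    apply h2
    have h3 : thE (.g .a) = thE (wl l) * ((thE (wl l))⁻¹ * thE (.g .a) * thE (wl l)) * (thE (wl l))⁻¹ := by group
    rw [h3, h]
    group

/-- the commuting trick -/
theorem false_of_comm {p : ℕ} [hp : Fact p.Prime] (hp2 : p ≠ 2) {C : Set ThB.G} (h : Min p C) {c : ThB.G} (hc : c ∈ C)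
    (hc1 : c ≠ 1) {t : ThB.G} (ht : t * t = 1 ∧ t ≠ 1) (hg : t * (c⁻¹ * t * c) = (c⁻¹ * t * c) * t) : False := by
  have ho : orderOf t = 2 := orderOf_eq_prime (by rw [pow_two, ht.1]) ht.2
  refine h.comm_false hc hc1 (g := t) ?_ hg ?_
  · rw [ho]
    exact (Nat.coprime_primes Nat.prime_two hp.out).2 (Ne.symm hp2)
  · intro x hx
    obtain ⟨g, rfl⟩ := isConj_iff.1 hx
    refine core_inv hp2 _ ?_ ?_
    · intro h1
      exact ht.2 (by simpa using h1)
    · calc g * t * g⁻¹ * (g * t * g⁻¹) = g * (t * t) * g⁻¹ := by group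
        _ = 1 := by rw [ht.1]; group

theorem crow_nineteen : @CRow 19 ThB.G _ := by
  have hp : Fact (Nat.Prime 19) := ⟨by norm_num⟩
  intro C h c hc
  by_contra hc1
  obtain ⟨i, hi, hi0, hiC⟩ := exists_pow_mem h (by rw [card_Th]; norm_num) thW_order hc hc1
  have hdec : ∀ i < 19, i ≠ 0 → ∃ j < 9, ∃ l < 2, (i * 6 ^ j * 18 ^ l) % 19 = 1 := by decide
  obtain ⟨j, -, l, -, hjl⟩ := hdec i hi hi0
  have h1 := pow_mem_of_conj h thH_conj hiC j
  have h2 := pow_mem_of_conj h thA_conj h1 l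
  rw [← Nat.mod_add_div (i * 6 ^ j * 18 ^ l) 19, hjl, pow_add, pow_one, pow_mul, ← thW_order, pow_orderOf_eq_one,
    one_pow, mul_one] at h2
  have h3 : thE thW ≠ 1 := by
    intro h4
    have := thW_order
    rw [h4, orderOf_one] at this
    omega
  have h4 := of_ck c19
  rw [pow_one] at h4
  exact false_of_comm (by norm_num) h h2 h3 (cj_sq _) h4

theorem wTz_conj' : thE wTa * thE wTz = thE wTz ^ 25 * thE wTa := by
  rw [← wTz_conj, inv_mul_cancel_right]

theorem crow_thirtyone : @CRow 31 ThB.G _ := by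
  have hp : Fact (Nat.Prime 31) := ⟨by norm_num⟩
  intro C h c hc
  by_contra hc1
  obtain ⟨i, hi, hi0, hiC⟩ := exists_pow_mem h (by rw [card_Th]; norm_num) orderOf_wTz hc hc1
  have hdec : ∀ i < 31, i ≠ 0 → ∃ j < 3, ∃ r ∈ [1, 2, 3, 4, 8], (i * 25 ^ j) % 31 = r ∨ (i * 25 ^ j + r) % 31 = 0 := by
    decide
  obtain ⟨j, -, r, hr, hjr⟩ := hdec i hi hi0
  have h1 := pow_mem_of_conj h wTz_conj' hiC j
  have h31 : ∀ n, thE wTz ^ (31 * n) = 1 := by
    intro n
    rw [pow_mul, ← orderOf_wTz, pow_orderOf_eq_one, one_pow]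
  -- the involution
  obtain ⟨t, ht, hck⟩ : ∃ t : ThB.G, (t * t = 1 ∧ t ≠ 1) ∧
      t * ((thE wTz ^ r)⁻¹ * t * thE wTz ^ r) = ((thE wTz ^ r)⁻¹ * t * thE wTz ^ r) * t := by
    simp only [List.mem_cons, List.not_mem_nil, or_false] at hr
    rcases hr with rfl | rfl | rfl | rfl | rfl
    · exact ⟨_, cj_sq _, of_ck c1⟩
    · exact ⟨_, cj_sq _, of_ck c2⟩
    · exact ⟨_, cj_sq _, of_ck c3⟩
    · exact ⟨_, cj_sq _, of_ck c4⟩
    · exact ⟨_, cj_sq _, of_ck c8⟩
  have hne : thE wTz ^ (i * 25 ^ j) ≠ 1 := by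
    intro h4
    have h5 := orderOf_dvd_of_pow_eq_one h4
    rw [orderOf_wTz, hp.out.dvd_mul] at h5
    rcases h5 with h5 | h5
    · exact absurd (Nat.le_of_dvd (Nat.pos_of_ne_zero hi0) h5) (by omega)
    · have := hp.out.dvd_of_dvd_pow h5
      norm_num at this
  rcases hjr with h2 | h2
  · have h3 : thE wTz ^ (i * 25 ^ j) = thE wTz ^ r := by
      conv_lhs => rw [← Nat.mod_add_div (i * 25 ^ j) 31, h2, pow_add, h31, mul_one]
    rw [h3] at h1 hne
    exact false_of_comm (by norm_num) h h1 hne ht hck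
  · have h3 : thE wTz ^ (i * 25 ^ j) = (thE wTz ^ r)⁻¹ := by
      rw [eq_inv_iff_mul_eq_one, ← pow_add, ← Nat.mod_add_div (i * 25 ^ j + r) 31, h2, zero_add, h31]
    rw [h3] at h1 hne
    refine false_of_comm (by norm_num) h h1 hne ht ?_
    have h4 := comm_symm hck
    rw [inv_inv]
    exact h4

/-- **The primes 7, 13, 19, 31.** -/
theorem crow_large {p : ℕ} (hp : p = 7 ∨ p = 13 ∨ p = 19 ∨ p = 31) : CRow p Cfsg.Spor.Th := by
  rcases hp with rfl | rfl | rfl | rfl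
  · exact crow_seven
  · exact crow_thirteen
  · exact crow_nineteen
  · exact crow_thirtyone

/-- the row from the primes 2, 3, 5 -/
theorem crow_th_of (h2 : CRow 2 Cfsg.Spor.Th) (h3 : CRow 3 Cfsg.Spor.Th) (h5 : CRow 5 Cfsg.Spor.Th)
    {K : Type*} [Group K] (h : Spor.IsoTh K) (p : ℕ) [hp : Fact p.Prime] : CRow p K := by
  obtain ⟨e⟩ := h
  refine CRow.of_equiv e ?_
  by_cases hd : p ∣ 90745943887872000
  · have e1 : (90745943887872000 : ℕ) = 2 ^ 15 * (3 ^ 10 * (5 ^ 3 * (7 ^ 2 * (13 * (19 * 31))))) := by norm_num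
    rw [e1] at hd
    have hq : ∀ {q : ℕ}, q.Prime → ∀ {n : ℕ}, p ∣ q ^ n → p = q := fun hq n hn =>
      (Nat.prime_dvd_prime_iff_eq hp.out hq).1 (hp.out.dvd_of_dvd_pow hn)
    rcases hp.out.dvd_mul.1 hd with hd | hd
    · rwa [hq Nat.prime_two hd]
    rcases hp.out.dvd_mul.1 hd with hd | hd
    · rwa [hq Nat.prime_three hd]
    rcases hp.out.dvd_mul.1 hd with hd | hd
    · rwa [hq Nat.prime_five hd]
    refine crow_large ?_
    rcases hp.out.dvd_mul.1 hd with hd | hd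
    · exact Or.inl (hq (by norm_num) hd)
    rcases hp.out.dvd_mul.1 hd with hd | hd
    · exact Or.inr (Or.inl ((Nat.prime_dvd_prime_iff_eq hp.out (by norm_num)).1 hd))
    rcases hp.out.dvd_mul.1 hd with hd | hd
    · exact Or.inr (Or.inr (Or.inl ((Nat.prime_dvd_prime_iff_eq hp.out (by norm_num)).1 hd)))
    · exact Or.inr (Or.inr (Or.inr ((Nat.prime_dvd_prime_iff_eq hp.out (by norm_num)).1 hd)))
  · -- `p` does not divide the order
    intro C h c hc
    obtain ⟨k, hk⟩ := h.pel c hc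
    rcases k with _ | k
    · rwa [pow_zero, orderOf_eq_one_iff] at hk
    · exfalso
      apply hd
      rw [← card_Th]
      exact ((dvd_pow_self p (Nat.succ_ne_zero k)).trans (dvd_of_eq hk.symm)).trans (orderOf_dvd_natCard c)

end Cfsg.Agent.H755.CC.ThCyc
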