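import Cfsg.Agent.H635.SporTh31
import Cfsg.Agent.H755.CC.ThWordsData

/-!
# Involutions `t` of the Thompson group commuting with `t ^ (c ^ k)`, `c` of order 19 or 31 (helper755, S3828)

`c = thW` of order 19 and `c = wTz` of order 31; the involutions are conjugates of the generator `a`.  The products are
cut at the values of `ThWordsData`.
-/

set_option autoImplicit false
set_option Elab.async false
set_option maxRecDepth 100000

namespace Cfsg.Agent.H755.CC.ThW

open Cfsg.Agent.Th.Gen248 Cfsg.Agent.Th.Hom248 Cfsg.Agent.Th.Simple19 Cfsg.Agent.Th.Final Cfsg.Agent.H964.NoHall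
  Cfsg.Agent.H635.Spor

open Cfsg.Agent.Th.Words248 (expd mul)

/-- the conjugate of `a` by a word -/
def cj (l : List Lt) : Wd := .mul (.mul (.inv (wl l)) (.g .a)) (wl l)

/-- the conjugate of `x` by `y ^ k` -/
def cp (x y : Wd) (k : ℕ) : Wd := .mul (.mul (.inv (.pow y k)) x) (.pow y k)

/-- the commuting check -/
noncomputable def ck (x y : Wd) (k : ℕ) : Bool :=
  Nat.beq (evN false (.mul x (cp x y k))) (evN false (.mul (cp x y k) x))

/-- the commuting check on values -/
noncomputable def ckv (X Y Z k : ℕ) : Bool :=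
  Nat.beq (mul X (mul (mul (powN Z k) X) (powN Y k))) (mul (mul (mul (powN Z k) X) (powN Y k)) X)

theorem ck_eq (x y : Wd) (k : ℕ) : ck x y k = ckv (evN false x) (evN false y) (evN true y) k := rfl

theorem ck_of {x y : Wd} {k X Y Z : ℕ} (hx : Nat.beq (evN false x) X = true) (hy : Nat.beq (evN false y) Y = true)
    (hz : Nat.beq (evN true y) Z = true) (h : ckv X Y Z k = true) : ck x y k = true := by
  rw [ck_eq, Nat.eq_of_beq_eq_true hx, Nat.eq_of_beq_eq_true hy, Nat.eq_of_beq_eq_true hz, h]

def t19 : Wd := cj [.b, .u, .b, .d, .s, .a, .U, .a, .d, .a]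
def t1 : Wd := cj [.U, .b, .U, .s, .e, .a, .d, .U, .d, .U]
def t2 : Wd := cj [.u, .T, .b, .a, .u, .S, .d, .u, .a, .T, .c, .b, .U, .d, .c, .a]
def t3 : Wd := cj [.b, .u, .d, .u, .T, .d, .b, .s, .U]
def t4 : Wd := cj [.b, .c, .d, .c, .e, .t, .b, .d, .a]
def t8 : Wd := cj [.b, .u, .s, .d, .S, .e, .d, .a, .s, .c, .u, .b, .S, .T, .a, .u]

theorem v19 : Nat.beq (evN false t19) (expd d19) = true := by decide +kernel
theorem v1 : Nat.beq (evN false t1) (expd d1) = true := by decide +kernel
theorem v2 : Nat.beq (evN false t2) (expd d2) = true := by decide +kernel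
theorem v3 : Nat.beq (evN false t3) (expd d3) = true := by decide +kernel
theorem v4 : Nat.beq (evN false t4) (expd d4) = true := by decide +kernel
theorem v8 : Nat.beq (evN false t8) (expd d8) = true := by decide +kernel

theorem vw : Nat.beq (evN false wTw) (expd dw) = true := by decide +kernel
theorem vwi : Nat.beq (evN true wTw) (expd dwi) = true := by decide +kernel

/-- `wTz` from the values of `wTw` and its inverse -/
theorem vz_of {B C Z : ℕ} (hb : Nat.beq (evN false wTw) B = true) (hc : Nat.beq (evN true wTw) C = true)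
    (h : Nat.beq (mul (evN false wTa) (mul (mul C (evN true wTa)) B)) Z = true) :
    Nat.beq (evN false wTz) Z = true := by
  have e : evN false wTz = mul (evN false wTa) (mul (mul (evN true wTw) (evN true wTa)) (evN false wTw)) := rfl
  rw [e, Nat.eq_of_beq_eq_true hb, Nat.eq_of_beq_eq_true hc, h]

/-- the inverse of `wTz` from the values of `wTw` and its inverse -/
theorem vzi_of {B C Z : ℕ} (hb : Nat.beq (evN false wTw) B = true) (hc : Nat.beq (evN true wTw) C = true)
    (h : Nat.beq (mul (mul C (mul (evN false wTa) B)) (evN true wTa)) Z = true) :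
    Nat.beq (evN true wTz) Z = true := by
  have e : evN true wTz = mul (mul (evN true wTw) (mul (evN false wTa) (evN false wTw))) (evN true wTa) := rfl
  rw [e, Nat.eq_of_beq_eq_true hb, Nat.eq_of_beq_eq_true hc, h]

theorem vz0 : Nat.beq (mul (evN false wTa) (mul (mul (expd dwi) (evN true wTa)) (expd dw))) (expd dz) = true := by
  decide +kernel
theorem vzi0 : Nat.beq (mul (mul (expd dwi) (mul (evN false wTa) (expd dw))) (evN true wTa)) (expd dzi) = true := by
  decide +kernel

theorem vz : Nat.beq (evN false wTz) (expd dz) = true := vz_of vw vwi vz0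
theorem vzi : Nat.beq (evN true wTz) (expd dzi) = true := vzi_of vw vwi vzi0

theorem vW : Nat.beq (evN false thW) (expd dW) = true := by decide +kernel
theorem vWi : Nat.beq (evN true thW) (expd dWi) = true := by decide +kernel

theorem k19 : ckv (expd d19) (expd dW) (expd dWi) 1 = true := by decide +kernel
theorem k1 : ckv (expd d1) (expd dz) (expd dzi) 1 = true := by decide +kernel
theorem k2 : ckv (expd d2) (expd dz) (expd dzi) 2 = true := by decide +kernel
theorem k3 : ckv (expd d3) (expd dz) (expd dzi) 3 = true := by decide +kernel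
theorem k4 : ckv (expd d4) (expd dz) (expd dzi) 4 = true := by decide +kernel
theorem k8 : ckv (expd d8) (expd dz) (expd dzi) 8 = true := by decide +kernel

theorem c19 : ck t19 thW 1 = true := ck_of v19 vW vWi k19
theorem c1 : ck t1 wTz 1 = true := ck_of v1 vz vzi k1
theorem c2 : ck t2 wTz 2 = true := ck_of v2 vz vzi k2
theorem c3 : ck t3 wTz 3 = true := ck_of v3 vz vzi k3
theorem c4 : ck t4 wTz 4 = true := ck_of v4 vz vzi k4
theorem c8 : ck t8 wTz 8 = true := ck_of v8 vz vzi k8

end Cfsg.Agent.H755.CC.ThW
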